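import Mathlib
import Cfsg.Agent.Lib.NoPQ.Pure
import Cfsg.Agent.Lib.Orth.TriOut

/-!
# A prime adjacent to all other primes: the interfaces (plans/ADJ.md)
-/

set_option autoImplicit false

namespace CfsgLib.Adj

open Cfsg Subgroup CfsgLib.SemP CfsgLib.NoPQ

/-- `X` has a non-cyclic `r`-subgroup -/
def NC (r : ℕ) (X : Type*) [Group X] : Prop := ∃ R : Subgroup X, IsPGroup r R ∧ ¬ IsCyclic R

/-- the shape of the outer automorphism group -/
def OD (O : Type*) [Group O] (Q : ℕ → Prop) : Prop :=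
  ∃ N : Subgroup O, commutator O ≤ N ∧ (∀ t, t.Prime → t ∣ Nat.card N → Q t) ∧
    (IsCyclic N ∨ ∀ x : O, (orderOf x).Coprime (Nat.card N) → x ∈ center O)

variable {K L : Type*} [Group K] [Group L]

/-- the automorphisms whose class lies in `X` -/
abbrev up (X : Subgroup (Out K)) : Subgroup (MulAut K) := X.comap (QuotientGroup.mk' (Inn K))

variable (K)

/-- elements of order `t s` when the Sylow `s`-subgroups are not cyclic -/
def FE (t : ℕ) : Prop :=
  ∀ X : Subgroup (Out K), t ∣ Nat.card X → ∀ s, s.Prime → s ≠ t → s = 2 ∨ NC s K → Ex (up X) (t * s)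

/-- what is used about an odd prime dividing the order of the commutator subgroup of `Out K` -/
def FB (t : ℕ) : Prop := t ∣ Nat.card K ∧ (∀ u, u.Prime → u ∣ t - 1 → u ∣ Nat.card K) ∧ FE K t

/-- elements of order `2 s` -/
def FT (s : ℕ) : Prop := ∀ X : Subgroup (Out K), NC 2 X → Ex (up X) (2 * s)

/-- the data of a family -/
def Fam : Prop := IsCyclic (Out K) ∨ (OD (Out K) (fun t => t = 2 ∨ FB K t) ∧
  ∀ s, s.Prime → s ≠ 2 → Ab s (⊤ : Subgroup K) → NC s K → FT K s)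

/-- the conclusion for almost simple groups -/
def Adj : Prop := ∀ X : Subgroup (Out K), ¬ IsCyclic X → ∃ r, r.Prime ∧ r ∣ Nat.card X ∧
  (NC r X ∨ r ≠ 2 ∧ r ∣ Nat.card K) ∧ ∀ s, s.Prime → s ≠ r → s ∣ Nat.card K ∨ s ∣ Nat.card X → Ex (up X) (r * s)

variable {K} {r s t : ℕ}

theorem inn_le_up (X : Subgroup (Out K)) : Inn K ≤ up X := fun β h => by
  rw [mem_comap, QuotientGroup.mk'_apply, (QuotientGroup.eq_one_iff β).2 h]
  exact one_mem _

theorem NC.of_inj (h : NC r K) (φ : K →* L) (hφ : Function.Injective φ) : NC r L :=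
  let ⟨R, h1, h2⟩ := h
  ⟨R.map φ, h1.map φ, fun k => h2 ((R.equivMapOfInjective φ hφ).isCyclic.2 k)⟩

theorem NC.of_equiv (h : NC r K) (e : K ≃* L) : NC r L := h.of_inj e.toMonoidHom e.injective

theorem exists_tr (e : K ≃* L) (X : Subgroup (Out K)) :
    ∃ X' : Subgroup (Out L), Nonempty (X ≃* X') ∧ ∀ n, Ex (up X') n → Ex (up X) n := by
  refine ⟨X.map (Orth.outCongr e).toMonoidHom, ⟨X.equivMapOfInjective _ (Orth.outCongr e).injective⟩, ?_⟩
  rintro n ⟨β, ⟨x, hx, h1⟩, rfl⟩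
  obtain ⟨γ, rfl⟩ := (MulAut.congr e).surjective β
  exact ⟨γ, by rwa [mem_comap, ← (Orth.outCongr e).injective (a₂ := QuotientGroup.mk' _ γ) h1],
    ((MulAut.congr e).orderOf_eq γ).symm⟩

theorem FE.of_equiv (e : K ≃* L) (h : FE L t) : FE K t := fun X h1 s hs h2 h3 =>
  let ⟨X', ⟨f⟩, k⟩ := exists_tr e X
  k _ (h X' (Nat.card_congr f.toEquiv ▸ h1) s hs h2 (h3.imp_right fun h4 => h4.of_equiv e))

theorem FT.of_equiv (e : K ≃* L) (h : FT L s) : FT K s := fun X h1 =>
  let ⟨X', ⟨f⟩, k⟩ := exists_tr e X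
  k _ (h X' (h1.of_equiv f))

theorem FT.of_order [Finite K] (hZ : center K = ⊥) (h : ∃ g : K, orderOf g = 2 * s) : FT K s := fun X _ =>
  ex_of_order hZ (inn_le_up X) h.choose_spec

theorem OD.congr {O O' : Type*} [Group O] [Group O'] {Q : ℕ → Prop} (e : O' ≃* O) (h : OD O Q) : OD O' Q := by
  obtain ⟨N, h1, h2, h3⟩ := h
  have e' : N.comap e.toMonoidHom ≃* N := (comap_equiv_eq_map_symm' e N ▸ (e.symm.subgroupMap N).symm :)
  refine ⟨N.comap e.toMonoidHom, map_le_iff_le_comap.1 ?_, by rwa [Nat.card_congr e'.toEquiv], ?_⟩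
  · rw [_root_.commutator_def, map_commutator]
    exact (commutator_mono le_top le_top).trans h1
  · rw [e'.isCyclic, Nat.card_congr e'.toEquiv]
    exact h3.imp_right fun h x hx => mem_center_iff.2 fun y => e.injective (by
      rw [map_mul, map_mul, mem_center_iff.1 (h (e x) (by rwa [e.orderOf_eq]))])

theorem od_of_hom {O A : Type*} [Group O] [CommGroup A] {Q : ℕ → Prop} (φ : O →* A) (h1 : IsCyclic φ.ker)
    (h2 : ∀ t, t.Prime → t ∣ Nat.card φ.ker → Q t) : OD O Q :=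
  ⟨_, Abelianization.commutator_subset_ker φ, h2, .inl h1⟩

theorem od_of_prime {O : Type*} [Group O] [Finite O] {Q : ℕ → Prop} {N : Subgroup O} (h : commutator O ≤ N) {p : ℕ}
    (hp : p.Prime) (h1 : Nat.card N ∣ p) (h2 : Q p) : OD O Q :=
  have := Fact.mk hp
  ⟨N, h, fun _ ht k => (Nat.prime_dvd_prime_iff_eq ht hp).1 (k.trans h1) ▸ h2, .inl (isCyclic_of_card_dvd_prime h1)⟩

theorem od_of_equiv {O X A : Type*} [Group O] [Group X] [Finite X] [CommGroup A] {Q : ℕ → Prop} (e : O ≃* X × A)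
    (h : ∀ t, t.Prime → t ∣ Nat.card X → Q t) : OD O Q := by
  have k : Nat.card (MonoidHom.snd X A).ker = Nat.card X := by
    rw [MonoidHom.ker_snd, Nat.card_congr (prodEquiv _ _).toEquiv, Nat.card_prod, card_top, card_bot, mul_one]
  refine OD.congr e ⟨_, Abelianization.commutator_subset_ker (MonoidHom.snd X A), k ▸ h, .inr fun x hx => ?_⟩
  have h1 : x.1 = 1 := orderOf_eq_one_iff.1 (Nat.eq_one_of_dvd_coprimes (k ▸ hx)
    (orderOf_map_dvd (MonoidHom.fst X A) x) (orderOf_dvd_natCard _))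
  exact mem_center_iff.2 fun y => Prod.ext (by simp [h1]) (mul_comm _ _)

end CfsgLib.Adj
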