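import Mathlib
import Cfsg.Agent.Lib.Adj.Defs
import Cfsg.Agent.Lib.Frob.Complement

/-!
# The group theoretic part (package PURE of plans/ADJ.md)
-/

set_option autoImplicit false
set_option linter.unusedSectionVars false

namespace CfsgLib.Adj

open Cfsg Subgroup CfsgLib.SemP CfsgLib.NoPQ

open scoped commutatorElement

variable {G O : Type*} [Group G] [Group O] {r s : ℕ}

theorem ex_of_dvd {Y : Subgroup G} {g : G} (hg : g ∈ Y) (h0 : IsOfFinOrder g) {n : ℕ} (h : n ∣ orderOf g) : Ex Y n :=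
  ⟨g ^ (orderOf g / n), pow_mem hg _, orderOf_pow_orderOf_div h0.orderOf_pos.ne' h⟩

theorem ex_of_commute {Y : Subgroup G} (hr : r.Prime) (hs : s.Prime) (hrs : s ≠ r) {x y : G} (hx : x ∈ Y) (hy : y ∈ Y)
    (x1 : x ≠ 1) (y1 : y ≠ 1) {i j : ℕ} (x2 : x ^ r ^ i = 1) (y2 : y ^ s ^ j = 1) (h : Commute x y) : Ex Y (r * s) := by
  have k : ∀ {p i : ℕ} {x : G}, p.Prime → x ≠ 1 → x ^ p ^ i = 1 → ∃ m, 0 < m ∧ orderOf x = p ^ m := fun hp h1 h2 => by
    obtain ⟨m, -, e⟩ := (Nat.dvd_prime_pow hp).1 (orderOf_dvd_of_pow_eq_one h2)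
    exact ⟨m, Nat.pos_of_ne_zero fun e' => h1 (by rwa [e', pow_zero, orderOf_eq_one_iff] at e), e⟩
  obtain ⟨a, a1, a2⟩ := k hr x1 x2
  obtain ⟨b, b1, b2⟩ := k hs y1 y2
  have h3 := h.orderOf_mul_eq_mul_orderOf_of_coprime (by
    rw [a2, b2]; exact ((Nat.coprime_primes hr hs).2 hrs.symm).pow _ _)
  rw [a2, b2] at h3
  exact ex_of_dvd (mul_mem hx hy) (orderOf_pos_iff.1 (h3 ▸ mul_pos (pow_pos hr.pos _) (pow_pos hs.pos _)))
    (h3 ▸ mul_dvd_mul (dvd_pow_self _ a1.ne') (dvd_pow_self _ b1.ne'))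

variable [Finite G]

theorem ex_of_map (φ : G →* O) {Y : Subgroup G} {n : ℕ} (h : Ex (Y.map φ) n) : Ex Y n := by
  obtain ⟨_, ⟨g, hg, rfl⟩, rfl⟩ := h
  exact ex_of_dvd hg (isOfFinOrder_of_finite g) (orderOf_map_dvd φ g)

theorem pq_of_not_ex {Y R P : Subgroup G} (hr : r.Prime) (hs : s.Prime) (hrs : s ≠ r) (hR : IsPGroup r R)
    (hP : IsPGroup s P) (h1 : R ≤ Y) (h2 : P ≤ Y) (h : ¬ Ex Y (r * s)) :
    ∀ x ∈ R, x ≠ 1 → P ⊓ centralizer {x} = ⊥ := fun x hx x1 => eq_bot_iff.2 fun y hy => by_contra fun y1 =>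
  let ⟨_, a⟩ := hR ⟨x, hx⟩
  let ⟨_, b⟩ := hP ⟨y, hy.1⟩
  h (ex_of_commute hr hs hrs (h1 hx) (h2 hy.1) x1 y1 (congrArg Subtype.val a) (congrArg Subtype.val b)
    (mem_centralizer_singleton_iff.1 hy.2).symm)

theorem exists_lift (hr : r.Prime) (φ : G →* O) {N : Subgroup G} {R₀ : Subgroup O} (h1 : R₀ ≤ N.map φ)
    (h2 : IsPGroup r R₀) {T : Subgroup G} (h4 : T ≤ N ⊓ R₀.comap φ) (h5 : IsPGroup r T) :
    ∃ R ≤ N, IsPGroup r R ∧ R.map φ = R₀ ∧ T ≤ R := by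
  have := Fact.mk hr
  let N₀ := N ⊓ R₀.comap φ
  obtain ⟨R, hR⟩ := (h5.comap_subtype (K := N₀)).exists_le_sylow
  let ψ : N₀ →* R₀ := (φ.comp N₀.subtype).codRestrict R₀ fun x => x.2.2
  have hψ : Function.Surjective ψ := fun y => by
    obtain ⟨x, hx, e⟩ := h1 y.2
    exact ⟨⟨x, hx, show φ x ∈ R₀ from e ▸ y.2⟩, Subtype.ext e⟩
  have : Finite R₀ := Finite.of_surjective _ hψ
  have h3 : (R.mapSurjective hψ).toSubgroup = ⊤ := ((R.mapSurjective hψ).is_maximal' (h2.to_subgroup ⊤) le_top).symm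
  refine ⟨R.1.map N₀.subtype, (map_subtype_le _).trans inf_le_left, R.2.map _, le_antisymm ?_ fun y hy => ?_, ?_⟩
  · rintro _ ⟨_, ⟨x, -, rfl⟩, rfl⟩
    exact x.2.2
  · obtain ⟨x, hx, e⟩ : (⟨y, hy⟩ : R₀) ∈ (R.mapSurjective hψ).toSubgroup := h3 ▸ mem_top _
    exact ⟨x, mem_map_of_mem _ hx, congrArg Subtype.val e⟩
  · exact fun x hx => ⟨⟨x, h4 hx⟩, hR hx, rfl⟩

omit [Finite G] in
theorem comm_le_cent {N P : Subgroup G} (hP : IsCyclic P) (h : N ≤ normalizer (P : Set G)) :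
    ⁅N, N⁆ ≤ centralizer (P : Set G) := by
  refine commutator_le.2 fun a ha b hb => ?_
  have h1 := Abelianization.commutator_subset_ker ((IsCyclic.mulAutMulEquiv P).toMonoidHom.comp P.normalizerMonoidHom)
    (commutator_mem_commutator (mem_top ⟨a, h ha⟩) (mem_top ⟨b, h hb⟩))
  have h2 : (⁅(⟨a, h ha⟩ : normalizer (P : Set G)), ⟨b, h hb⟩⁆) ∈ P.normalizerMonoidHom.ker :=
    (IsCyclic.mulAutMulEquiv P).injective (h1.trans (map_one _).symm)
  rw [normalizerMonoidHom_ker] at h2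
  exact h2

theorem not_two_dvd (P : Sylow 2 G) (hP : IsCyclic P) : ¬ 2 ∣ Nat.card (commutator G) := fun h => by
  have h1 := (Nat.minFac_eq_two_iff _).2 (h.trans (card_subgroup_dvd_card _))
  have h2 := hP.normalizer_le_centralizer h1
  let := IsCyclic.commGroup (α := P)
  exact MonoidHom.not_dvd_card_ker_transferSylow P h2
    (h.trans (card_dvd_of_le (Abelianization.commutator_subset_ker _)))

theorem nc_pair (hs : s.Prime) (h2 : s ≠ 2) (h : NC s G) :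
    ∃ x y : G, x ^ s = 1 ∧ y ^ s = 1 ∧ Commute x y ∧ x ≠ 1 ∧ y ∉ zpowers x := by
  have := Fact.mk hs
  obtain ⟨R, h1, h3⟩ := h
  obtain ⟨E, h4, h5⟩ : ∃ E : Subgroup R, (∀ x ∈ E, x ^ s = 1) ∧ Nat.card E = s ^ 2 := by
    by_contra! k
    exact (Frob.cyclic_or_quaternion_of_rank_one h1 k).elim h3 fun k => h2 k.1
  have : Nontrivial E := Finite.one_lt_card_iff_nontrivial.1 (h5 ▸ Nat.one_lt_pow two_ne_zero hs.one_lt)
  obtain ⟨x, hx⟩ := exists_ne (1 : E)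
  have h6 : ∀ x : E, x ^ s = 1 := fun x => Subtype.ext (h4 x x.2)
  obtain ⟨y, hy⟩ : ∃ y, y ∉ zpowers x := by
    by_contra! k
    have := Nat.card_zpowers x
    rw [(eq_top_iff' _).2 k, card_top, h5, orderOf_eq_prime (h6 x) hx] at this
    have := hs.one_lt
    nlinarith
  let φ := R.subtype.comp E.subtype
  have hφ : Function.Injective φ := R.subtype_injective.comp E.subtype_injective
  refine ⟨φ x, φ y, by rw [← map_pow, h6, map_one], by rw [← map_pow, h6, map_one],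
    Commute.map ((IsPGroup.isMulCommutative_of_card_eq_prime_sq h5).1.1 x y) φ, fun e => hx (hφ (e.trans (map_one φ).symm)),
    fun ⟨k, e⟩ => hy ⟨k, hφ ((map_zpow φ x k).trans e)⟩⟩

omit [Finite G] in
theorem isCyclic_map {R : Subgroup G} (h : IsCyclic R) (φ : G →* O) : IsCyclic (R.map φ) :=
  isCyclic_of_surjective _ (φ.subgroupMap_surjective R)

theorem ab_of_fpf {R P : Subgroup G} (hR : IsPGroup 2 R) (h1 : ¬ IsCyclic R) (h0 : P ≠ ⊥)
    (h2 : R ≤ normalizer (P : Set G)) (h3 : ∀ x ∈ R, x ≠ 1 → P ⊓ centralizer {x} = ⊥) :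
    (∀ a ∈ P, ∀ b ∈ P, Commute a b) ∧ ¬ IsCyclic P := by
  refine ⟨fun a ha b hb => ?_, fun h => h1 ((Frob.pqCond_of_fpf h0 h2 h3).isCyclic_of_comm ⟨⟨fun a b => ?_⟩⟩)⟩
  · have : Nontrivial R := not_subsingleton_iff_nontrivial.1 fun _ => h1 inferInstance
    obtain ⟨x, hx⟩ := exists_ne (1 : R)
    obtain ⟨j, hj⟩ := hR x
    obtain ⟨z, z1, z2, z3⟩ := op_of_pow Nat.prime_two x.2 (fun e => hx (Subtype.ext e)) (congrArg Subtype.val hj)
    refine (MonoidHom.FixedPointFree.commute_all_of_involutive (φ := P.normalizerMonoidHom ⟨z, h2 z1⟩) (fun g e => ?_)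
      (fun g => ?_) ⟨a, ha⟩ ⟨b, hb⟩).map P.subtype
    · exact Subtype.ext (mem_bot.1 (h3 z z1 z2 ▸ ⟨g.2, mem_centralizer_singleton_iff.2
        (mul_inv_eq_iff_eq_mul.1 (congrArg Subtype.val e)).symm⟩))
    · rw [← MulAut.mul_apply, ← map_mul, ← sq, show (⟨z, h2 z1⟩ : normalizer (P : Set G)) ^ 2 = 1 from Subtype.ext z3]
      simp
  · by_contra k
    refine h0 (eq_bot_iff.2 fun y hy => ?_)
    rw [← h3 ⁅a.1, b.1⁆ ⁅a, b⁆.2 fun e =>
      k (Subtype.ext (commutatorElement_eq_one_iff_mul_comm.1 e))]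
    exact ⟨hy, mem_centralizer_singleton_iff.2 (comm_le_cent h h2 (commutator_mem_commutator a.2 b.2) y hy)⟩

theorem ex_nc {Q : ℕ → Prop} (h : OD G Q) {X : Subgroup G} (hr : r.Prime) (hs : s.Prime) (hrs : s ≠ r) (h1 : NC r X)
    (h2 : s ∣ Nat.card X) (h3 : ¬ Q s) : Ex X (r * s) := by
  have := Fact.mk hr
  have := Fact.mk hs
  obtain ⟨N, k1, k2, k3⟩ := h
  obtain ⟨R, k4, k5⟩ := h1
  obtain ⟨y, hy⟩ := exists_prime_orderOf_dvd_card' s h2
  have y1 : (y : G) ^ s ^ 1 = 1 := by rw [pow_one, ← hy, ← coe_pow, pow_orderOf_eq_one, coe_one]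
  have k6 : ¬ s ∣ Nat.card N := fun e => h3 (k2 s hs e)
  rcases k3 with k3 | k3
  · have : N.Normal := ⟨fun x hx g => by
      simpa [commutatorElement_def] using mul_mem (k1 (commutator_mem_commutator (mem_top g) (mem_top x))) hx⟩
    obtain ⟨x, hx, k7⟩ : ∃ x ∈ R, (x : G) ∉ N := by
      by_contra! k
      have : IsCyclic (R.map X.subtype) := isCyclic_of_le (H' := N) (by rintro _ ⟨x, hx, rfl⟩; exact k x hx)
      exact k5 ((R.equivMapOfInjective _ X.subtype_injective).isCyclic.2 this)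
    obtain ⟨i, hi⟩ := k4 ⟨x, hx⟩
    refine ex_of_map (QuotientGroup.mk' N) (ex_of_commute hr hs hrs (mem_map_of_mem _ x.2) (mem_map_of_mem _ y.2)
      (mt (QuotientGroup.eq_one_iff _).1 k7) (fun e => k6 ?_) (i := i) (j := 1) ?_ (by rw [← map_pow, y1, map_one])
      ((Normal.quotient_commutative_iff_commutator_le.2 k1).1.1 _ _))
    · rw [← hy, ← orderOf_coe]
      exact orderOf_dvd_natCard (G := G) N ((QuotientGroup.eq_one_iff _).1 e)
    · rw [← map_pow, show (x : G) ^ r ^ i = 1 from congrArg (fun z : R => ((z : X) : G)) hi, map_one]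
  · have : Nontrivial R := not_subsingleton_iff_nontrivial.1 fun _ => k5 inferInstance
    obtain ⟨x, hx⟩ := exists_ne (1 : R)
    obtain ⟨i, hi⟩ := k4 x
    exact ex_of_commute hr hs hrs x.1.2 y.2 (fun e => hx (Subtype.ext (Subtype.ext e)))
      (fun e => hs.ne_one (by rw [← hy, ← orderOf_coe, e, orderOf_one])) (congrArg (fun z : R => ((z : X) : G)) hi) y1
      (mem_center_iff.1 (k3 y (by rwa [orderOf_coe, hy, hs.coprime_iff_not_dvd])) _)

theorem ex_z (hr : r.Prime) (hs : s.Prime) (hrs : s ≠ r) (hc : IsCyclic (commutator G))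
    (h1 : r ∣ Nat.card (commutator G)) (h2 : s ∣ Nat.card G) (h3 : ¬ s ∣ r - 1) : Ex (⊤ : Subgroup G) (r * s) := by
  have := Fact.mk hr
  have := Fact.mk hs
  obtain ⟨x, hx⟩ := exists_prime_orderOf_dvd_card' r h1
  obtain ⟨y, hy⟩ := exists_prime_orderOf_dvd_card' s h2
  have k1 : (zpowers (x : G)).Normal := ⟨by
    rintro _ ⟨k, rfl⟩ g
    obtain ⟨c, hc⟩ := hc.exists_generator
    obtain ⟨i, hi⟩ := hc x
    obtain ⟨j, hj⟩ := hc ⟨_, (inferInstance : (commutator G).Normal).conj_mem _ c.2 g⟩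
    refine ⟨j * k, ?_⟩
    rw [← hi]
    change ((c : G) ^ i) ^ (j * k) = g * ((c : G) ^ i) ^ k * g⁻¹
    rw [← conj_zpow, ← conj_zpow, ← show (c : G) ^ j = g * c * g⁻¹ from congrArg Subtype.val hj, ← zpow_mul, ← zpow_mul,
      ← zpow_mul, mul_left_comm i]⟩
  have k2 : y ∈ normalizer (zpowers (x : G) : Set G) := by
    rw [normalizer_eq_top_iff.2 k1]; trivial
  have k3 : (zpowers (x : G)).normalizerMonoidHom ⟨y, k2⟩ = 1 := orderOf_eq_one_iff.1 (Nat.eq_one_of_dvd_coprimes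
    (hs.coprime_iff_not_dvd.2 h3) ((orderOf_map_dvd _ _).trans (by rw [← orderOf_coe, hy])) (by
      rw [← Nat.totient_prime hr, ← hx, ← orderOf_coe x, ← Nat.card_zpowers (x : G), ← IsCyclic.card_mulAut]
      exact orderOf_dvd_natCard _))
  refine ex_of_commute hr hs hrs (mem_top (x : G)) (mem_top y) (i := 1) (j := 1) (fun e => hr.ne_one ?_)
    (fun e => hs.ne_one ?_) ?_ ?_ ?_
  · rw [← hx, ← orderOf_coe, e, orderOf_one]
  · rw [← hy, e, orderOf_one]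
  · rw [pow_one, ← hx, ← orderOf_coe, pow_orderOf_eq_one]
  · rw [pow_one, ← hy, pow_orderOf_eq_one]
  · rw [← MonoidHom.mem_ker, normalizerMonoidHom_ker] at k3
    exact k3 _ (mem_zpowers _)

end CfsgLib.Adj
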